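import Mathlib
import Cfsg.Prelude.Def_PLocal
import Cfsg.Agent.Lib.Helper63.MC.Defs

/-!
# S4144 team project "BB" (Blackburn: subgroups of `p`-groups of maximal class): interface

Every package is a `def PkgX : Prop` (universe polymorphic in `u`); a package is delivered as
`theorem pkgX : Cfsg.Agent.Lib.Helper63.BB.PkgX.{u}` (or `pkgX_of` with the listed package
hypotheses) in the deliverer's own file.

Indexing (as in the MC project): `L X i` is Mathlib's `(⊤ : Subgroup X).lowerCentralSeries i`,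
the classical `γ_{i+1}(X)`; `K X i = C_X(L i / L (i+2))` is the two-step centralizer.
`X` has maximal class: `Nat.card X = p ^ n`, `Group.nilpotencyClass X = n - 1`.
-/

set_option autoImplicit false

namespace Cfsg.Agent.Lib.Helper63.BB

open Cfsg.Agent.Lib.Helper63.MC

universe u

/-- iterated commutator with `e` (same recursion as `Helper85.UnifElt.cseq`) -/
def cs {G : Type u} [Group G] (e b : G) : ℕ → G
  | 0 => b
  | j + 1 => (cs e b j)⁻¹ * (e * cs e b j * e⁻¹)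

/-- uniform element: outside all two-step centralizers `K X i`, `1 ≤ i ≤ n - 3` -/
def IsUnif (X : Type u) [Group X] (n : ℕ) (s : X) : Prop :=
  ∀ i, 1 ≤ i → i + 3 ≤ n → s ∉ K X i

/-- power structure of the lower central series -/
def PowStr (p n : ℕ) (X : Type u) [Group X] : Prop :=
  (∀ i, 1 ≤ i → ∀ x ∈ L X i, x ^ p ∈ L X (i + p - 1)) ∧
    (∀ i, 1 ≤ i → i + p + 1 ≤ n → ∀ x ∈ L X i, x ∉ L X (i + 1) → x ^ p ∉ L X (i + p))

/-- the subgroup generated by the conjugates `x ^ i * y * x ^ (-i)` -/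
def NC {G : Type u} [Group G] (x y : G) : Subgroup G :=
  Subgroup.closure (Set.range fun i : ℕ => x ^ i * y * (x ^ i)⁻¹)

/-- [KB] basic facts on the two-step centralizers. -/
def PkgKBasic : Prop :=
  ∀ (X : Type u) [Group X] [Finite X] (p : ℕ) [Fact p.Prime] (n : ℕ), 4 ≤ n →
    Nat.card X = p ^ n → Group.nilpotencyClass X = n - 1 →
    ∀ i, 1 ≤ i → i + 3 ≤ n →
      L X 1 ≤ K X i ∧ K X i ≠ ⊤ ∧ Nat.card (K X i) = p ^ (n - 1)

/-- [KI] an element outside `K X i` acts injectively `L i / L (i+1) → L (i+1) / L (i+2)`. -/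
def PkgKInj : Prop :=
  ∀ (X : Type u) [Group X] [Finite X] (p : ℕ) [Fact p.Prime] (n : ℕ), 4 ≤ n →
    Nat.card X = p ^ n → Group.nilpotencyClass X = n - 1 →
    ∀ i, 1 ≤ i → i + 3 ≤ n → ∀ g : X, g ∉ K X i → ∀ a ∈ L X i, a ∉ L X (i + 1) →
      a⁻¹ * (g * a * g⁻¹) ∉ L X (i + 2)

/-- [UC] a uniform element has centralizer of order `p ^ 2` and central `p`-th power. -/
def PkgUnifCent : Prop :=
  ∀ (X : Type u) [Group X] [Finite X] (p : ℕ) [Fact p.Prime] (n : ℕ), 4 ≤ n →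
    Nat.card X = p ^ n → Group.nilpotencyClass X = n - 1 →
    ∀ s : X, IsUnif X n s →
      Nat.card (Subgroup.centralizer ({s} : Set X)) = p ^ 2 ∧ s ^ p ∈ Subgroup.center X ∧
        s ∉ L X 1

/-- [PS] a uniform element gives the power structure. -/
def PkgPowStr : Prop :=
  ∀ (X : Type u) [Group X] [Finite X] (p : ℕ) [Fact p.Prime] (n : ℕ), 4 ≤ n →
    Nat.card X = p ^ n → Group.nilpotencyClass X = n - 1 →
    ∀ s : X, IsUnif X n s → PowStr p n X

/-- [UEX] existence of uniform elements when there are at most `p` two-step centralizers. -/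
def PkgUnifEx : Prop :=
  ∀ (X : Type u) [Group X] [Finite X] (p : ℕ) [Fact p.Prime] (n : ℕ), 4 ≤ n →
    Nat.card X = p ^ n → Group.nilpotencyClass X = n - 1 →
    (n ≤ p + 3 ∨ (3 ≤ p ∧ ∀ i, 1 ≤ i → i + 5 ≤ n → K X i = K X 1)) → ∃ s : X, IsUnif X n s

/-- [UCH] the commutator chain of a uniform element never dies early. -/
def PkgUnifChain : Prop :=
  ∀ (X : Type u) [Group X] [Finite X] (p : ℕ) [Fact p.Prime] (n : ℕ), 4 ≤ n →
    Nat.card X = p ^ n → Group.nilpotencyClass X = n - 1 →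
    ∀ s : X, IsUnif X n s → ∃ y : X, ∀ j, 1 ≤ j → j + 2 ≤ n → cs s y j ∉ L X (j + 1)

/-- [RC] in a regular `p`-group `|Ω₁| * |{p-th powers}| = |M|`. -/
def PkgRegCount : Prop :=
  ∀ (M : Type u) [Group M] [Finite M] (p : ℕ) [Fact p.Prime], Cfsg.IsRegularPGroup p M →
    Nat.card {m : M // m ^ p = 1} * Nat.card {y : M // ∃ m : M, y = m ^ p} = Nat.card M

/-- [CLK] order `p ^ (p+2)`: every two-step centralizer has class `< p`. -/
def PkgClassK : Prop :=
  ∀ (X : Type u) [Group X] [Finite X] (p : ℕ) [Fact p.Prime],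
    Nat.card X = p ^ (p + 2) → Group.nilpotencyClass X = p + 1 →
    ∀ w, 1 ≤ w → w + 1 ≤ p → (K X w).lowerCentralSeries (p - 1) = ⊥

/-- [AP] order `p ^ (p+2)`: `p`-th powers of the elements of `K X w` outside `L 1`. -/
def PkgAPow : Prop :=
  ∀ (X : Type u) [Group X] [Finite X] (p : ℕ) [Fact p.Prime],
    Nat.card X = p ^ (p + 2) → Group.nilpotencyClass X = p + 1 → PowStr p (p + 2) X →
    ∀ w, 1 ≤ w → w + 1 ≤ p → ∀ m ∈ K X w, m ∉ L X 1 → m ^ p ∈ L X (p - 1) ∧ m ^ p ∉ L X p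

/-- [A] order `p ^ (p+2)`: all two-step centralizers coincide, and some `p`-th power is
outside `L p`. -/
def PkgA : Prop :=
  ∀ (X : Type u) [Group X] [Finite X] (p : ℕ) [Fact p.Prime],
    Nat.card X = p ^ (p + 2) → Group.nilpotencyClass X = p + 1 → PowStr p (p + 2) X →
    (∀ w, 1 ≤ w → w + 1 ≤ p → K X w = K X 1) ∧ ∃ g : X, g ^ p ∉ L X p

/-- [B] the induction step for `n ≥ p + 4`. -/
def PkgStepB : Prop :=
  ∀ (X : Type u) [Group X] [Finite X] (p : ℕ) [Fact p.Prime] (n : ℕ), p ≠ 2 → p + 4 ≤ n →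
    Nat.card X = p ^ n → Group.nilpotencyClass X = n - 1 → PowStr p n X →
    (∀ i, 1 ≤ i → i + 5 ≤ n → K X i = K X 1) → K X (n - 4) = K X 1

/-- [QK] two-step centralizers and the quotient by `L (n-2)`. -/
def PkgQuotK : Prop :=
  ∀ (X : Type u) [Group X] (n i : ℕ), i + 4 ≤ n → ∀ g : X,
    (g ∈ K X i ↔ (QuotientGroup.mk g : X ⧸ L X (n - 2)) ∈ K (X ⧸ L X (n - 2)) i)

/-- [BL] Blackburn: for `n ≥ p + 2` the two-step centralizers `K X i`, `i ≤ n - 4`, coincide. -/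
def PkgBL : Prop :=
  ∀ (X : Type u) [Group X] [Finite X] (p : ℕ) [Fact p.Prime] (n : ℕ), p ≠ 2 → p + 2 ≤ n →
    Nat.card X = p ^ n → Group.nilpotencyClass X = n - 1 →
    ∀ i, 1 ≤ i → i + 4 ≤ n → K X i = K X 1

/-- [JC] jump counting in a chain with factors of order `≤ p`. -/
def PkgJumpCount : Prop :=
  ∀ (G : Type u) [Group G] [Finite G] (p : ℕ) [Fact p.Prime], IsPGroup p G →
    ∀ (N d : ℕ) (F : ℕ → Subgroup G), (∀ i, F (i + 1) ≤ F i) → F N = ⊥ →
      (∀ i, i < N → Nat.card (F i) ≤ p * Nat.card (F (i + 1))) →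
      ∀ U V : Subgroup G, U ≤ F 0 →
        (∀ i, i + d < N → ∀ x ∈ U, x ∈ F i → x ∉ F (i + 1) →
          ∃ y ∈ V, y ∈ F (i + d) ∧ y ∉ F (i + d + 1)) →
        Nat.card U ≤ p ^ d * Nat.card V

/-- [SUB] the theorem for proper subgroups, given the power structure. -/
def PkgSub : Prop :=
  ∀ (X : Type u) [Group X] [Finite X] (p : ℕ) [Fact p.Prime] (n : ℕ), 4 ≤ n →
    Nat.card X = p ^ n → Group.nilpotencyClass X = n - 1 → PowStr p n X →
    ∀ H : Subgroup X, H ≠ ⊤ →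
      (Subgroup.closure {y : X | ∃ h ∈ H, y = h ^ p}).relIndex H ≤ p ^ p

/-- [TOPIDX] the theorem for `H = ⊤`, given a `p`-th power outside `L p`. -/
def PkgTopIdx : Prop :=
  ∀ (X : Type u) [Group X] [Finite X] (p : ℕ) [Fact p.Prime] (n : ℕ), 3 ≤ n →
    Nat.card X = p ^ n → Group.nilpotencyClass X = n - 1 →
    (∃ g : X, g ^ p ∉ L X p) →
    (Subgroup.closure {y : X | ∃ h ∈ (⊤ : Subgroup X), y = h ^ p}).relIndex ⊤ ≤ p ^ p

/-- [ML] `b ↦ cs x b j` is multiplicative modulo `L (j+1)`. -/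
def PkgMultLin : Prop :=
  ∀ (G : Type u) [Group G] (x g h : G) (j : ℕ),
    cs x (g * h) j * (cs x g j * cs x h j)⁻¹ ∈ L G (j + 1)

/-- [SC] scaling lemma: an endomorphism inducing the `b`-th power on `N / N'` induces the
`b ^ (k+1)`-th power on `γ_{k+1}(N) / γ_{k+2}(N)`. -/
def PkgScale : Prop :=
  ∀ (G : Type u) [Group G] (N : Subgroup G) (θ : G →* G) (b : ℕ),
    (∀ g ∈ N, θ g ∈ N) → (∀ g ∈ N, θ g * (g ^ b)⁻¹ ∈ N.lowerCentralSeries 1) →
    ∀ k : ℕ, ∀ w ∈ N.lowerCentralSeries k,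
      θ w * (w ^ (b ^ (k + 1)))⁻¹ ∈ N.lowerCentralSeries (k + 1)

/-- [EB] exponent `p`: the `(p-1)`-fold commutator lies in the derived subgroup of `NC x y`. -/
def PkgEngelBase : Prop :=
  ∀ (G : Type u) [Group G] (p : ℕ), p.Prime → (∀ g : G, g ^ p = 1) → ∀ x y : G,
    cs x y (p - 1) ∈ ⁅NC x y, NC x y⁆

/-- [NCL] the lower central series of `NC x y` gains one step. -/
def PkgNCLcs : Prop :=
  ∀ (G : Type u) [Group G] (x y : G) (k : ℕ), 1 ≤ k →
    (NC x y).lowerCentralSeries k ≤ L G (k + 1)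

/-- [ENGEL] exponent `p` and class `≤ p` imply the `(p-1)`-Engel identity. -/
def PkgEngel : Prop :=
  ∀ (G : Type u) [Group G] (p : ℕ), p.Prime → (∀ g : G, g ^ p = 1) → L G p = ⊥ →
    ∀ x y : G, cs x y (p - 1) = 1

/-- [T2] maximal class of order `p ^ (p+1)`: not of exponent `p`. -/
def PkgExpP : Prop :=
  ∀ (X : Type u) [Group X] [Finite X] (p : ℕ) [Fact p.Prime], p ≠ 2 →
    Nat.card X = p ^ (p + 1) → Group.nilpotencyClass X = p → ∃ g : X, g ^ p ∉ L X p

/-- [TOP] maximal class of order `p ^ n`, `n ≥ p + 2`: some `p`-th power is outside `L p`. -/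
def PkgTop : Prop :=
  ∀ (X : Type u) [Group X] [Finite X] (p : ℕ) [Fact p.Prime] (n : ℕ), p ≠ 2 → p + 2 ≤ n →
    Nat.card X = p ^ n → Group.nilpotencyClass X = n - 1 → ∃ g : X, g ^ p ∉ L X p

/-- [P2] the theorem for `p = 2`. -/
def PkgTwo : Prop :=
  ∀ (X : Type u) [Group X] [Finite X] (n : ℕ), 2 ≤ n → Nat.card X = 2 ^ n →
    Group.nilpotencyClass X = n - 1 → ∀ H : Subgroup X,
      (Subgroup.closure {y : X | ∃ h ∈ H, y = h ^ 2}).relIndex H ≤ 2 ^ 2

end Cfsg.Agent.Lib.Helper63.BB
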