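import Mathlib
import Cfsg.Agent.Lib.Helper63.BB.Defs
import Cfsg.Agent.Lib.Helper59.MC.Struct
import Cfsg.Agent.Lib.Helper67.MC.Quot

/-! S4144 project "BB": package [BL] (induction on `n`). -/

set_option autoImplicit false

namespace Cfsg.Agent.Lib.Helper63.BB

open Cfsg.Agent.Lib.Helper63.MC

universe u

theorem pkgBL_of (hA : PkgA.{u}) (hB : PkgStepB.{u}) (hQK : PkgQuotK.{u})
    (hUEx : PkgUnifEx.{u}) (hPS : PkgPowStr.{u}) : PkgBL.{u} := by
  have hQuot : PkgQuot.{u} :=
    Cfsg.Agent.Lib.Helper67.MC.pkgQuot_of Cfsg.Agent.Lib.Helper59.MC.pkgStruct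
  intro X _ _ p _ n hp2 hn hc hcl
  have hp : p.Prime := Fact.out
  have hp3 : 3 ≤ p := by
    have := hp.two_le
    omega
  -- strong induction on n, generalizing the group
  induction n using Nat.strong_induction_on generalizing X with
  | _ n ih =>
    intro i hi1 hi4
    have h4 : 4 ≤ n := by omega
    by_cases hn2 : n = p + 2
    · subst hn2
      obtain ⟨s, hs⟩ := hUEx X p (p + 2) h4 hc hcl (Or.inl (by omega))
      have hP := hPS X p (p + 2) h4 hc hcl s hs
      exact (hA X p hc (by rw [hcl]; omega) hP).1 i hi1 (by omega)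
    · obtain ⟨m, rfl⟩ : ∃ m, n = m + 2 := ⟨n - 2, by omega⟩
      have hq := hQuot X p (m + 2) (m + 1) (by omega) (by omega) hc hcl
      have hcQ : Nat.card (X ⧸ L X m) = p ^ (m + 1) := hq.1
      have hclQ : Group.nilpotencyClass (X ⧸ L X m) = m := hq.2
      have transfer : ∀ j, j + 4 ≤ m + 2 →
          K (X ⧸ L X m) j = K (X ⧸ L X m) 1 → K X j = K X 1 := by
        intro j hj hK
        ext g
        have h1 : g ∈ K X j ↔ (QuotientGroup.mk g : X ⧸ L X m) ∈ K (X ⧸ L X m) j :=
          hQK X (m + 2) j hj g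
        have h2 : g ∈ K X 1 ↔ (QuotientGroup.mk g : X ⧸ L X m) ∈ K (X ⧸ L X m) 1 :=
          hQK X (m + 2) 1 (by omega) g
        rw [h1, h2, hK]
      by_cases hn3 : m + 2 = p + 3
      · have hm : m + 1 = p + 2 := by omega
        have hcQ' : Nat.card (X ⧸ L X m) = p ^ (p + 2) := by rw [hcQ, hm]
        have hclQ' : Group.nilpotencyClass (X ⧸ L X m) = p + 2 - 1 := by rw [hclQ]; omega
        obtain ⟨s, hs⟩ := hUEx (X ⧸ L X m) p (p + 2) (by omega) hcQ' hclQ' (Or.inl (by omega))
        have hP := hPS (X ⧸ L X m) p (p + 2) (by omega) hcQ' hclQ' s hs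
        have hAQ := (hA (X ⧸ L X m) p hcQ' (by rw [hclQ]; omega) hP).1
        exact transfer i hi4 (hAQ i hi1 (by omega))
      · have hm4 : p + 4 ≤ m + 2 := by omega
        have ihQ := ih (m + 1) (by omega) (X ⧸ L X m) (by omega) hcQ (by rw [hclQ]; omega)
        have hlow : ∀ j, 1 ≤ j → j + 5 ≤ m + 2 → K X j = K X 1 := by
          intro j hj1 hj5
          exact transfer j (by omega) (ihQ j hj1 (by omega))
        obtain ⟨s, hs⟩ := hUEx X p (m + 2) h4 hc hcl (Or.inr ⟨hp3, hlow⟩)
        have hP := hPS X p (m + 2) h4 hc hcl s hs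
        have hlast := hB X p (m + 2) hp2 hm4 hc hcl hP hlow
        by_cases hi5 : i + 5 ≤ m + 2
        · exact hlow i hi1 hi5
        · have hi : i = m + 2 - 4 := by omega
          rw [hi]
          exact hlast

end Cfsg.Agent.Lib.Helper63.BB
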