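import Mathlib
import Cfsg.Agent.Lib.Helper63.BB.Defs
import Cfsg.Agent.Lib.Helper59.MC.Struct
import Cfsg.Agent.Lib.Helper85.UnifElt
import Cfsg.Agent.S4209

/-! S4144 project "BB": package [CLK]. -/

set_option autoImplicit false

namespace Cfsg.Agent.Lib.Helper63.BB

open Cfsg.Agent.Lib.Helper63.MC
open scoped commutatorElement

universe u

/-- from `mem_K` to commutators -/
theorem comm_mem_of_mem_K {X : Type u} [Group X] {i : ℕ} {g a : X} (hg : g ∈ K X i)
    (ha : a ∈ L X i) : ⁅a, g⁆ ∈ L X (i + 2) := by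
  have h := (mem_K.1 hg) a ha
  have hN : (L X (i + 2)).Normal := inferInstance
  have h2 := hN.conj_mem _ h a
  have e : a * (a⁻¹ * (g * a * g⁻¹)) * a⁻¹ = ⁅a, g⁆⁻¹ := by
    rw [commutatorElement_def]; group
  rw [e] at h2
  exact (Subgroup.inv_mem_iff _).1 h2

/-- if `M = ⟨t⟩ A` with `A` normal, and modulo the normal subgroup `N` the subgroup `A` is abelian and
centralized by `t`, then `M' ≤ N`. -/
theorem comm_le_of_cyclic_ext {X : Type u} [Group X] [Finite X] {p : ℕ} [Fact p.Prime]
    (A M N : Subgroup X) [hA : A.Normal] [hN : N.Normal] (hAM : A ≤ M)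
    (hcard : Nat.card M = p * Nat.card A) (t : X) (htM : t ∈ M) (htA : t ∉ A)
    (h1 : ∀ u ∈ A, ∀ v ∈ A, ⁅u, v⁆ ∈ N) (h2 : ∀ u ∈ A, ⁅u, t⁆ ∈ N) : ⁅M, M⁆ ≤ N := by
  rw [Subgroup.commutator_le]
  intro g hg h hh
  obtain ⟨a, ha⟩ := Cfsg.Agent.Lib.Helper85.UnifElt.exists_zpow_mul hA hAM hcard htM htA hg
  obtain ⟨b, hb⟩ := Cfsg.Agent.Lib.Helper85.UnifElt.exists_zpow_mul hA hAM hcard htM htA hh
  -- work in the quotient by N
  have key : ∀ x y : X, ⁅x, y⁆ ∈ N ↔
      Commute (QuotientGroup.mk x : X ⧸ N) (QuotientGroup.mk y : X ⧸ N) := by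
    intro x y
    rw [← commutatorElement_eq_one_iff_commute, ← QuotientGroup.eq_one_iff]
    simp [commutatorElement_def]
  rw [key]
  set u := (t ^ a)⁻¹ * g with hu
  set v := (t ^ b)⁻¹ * h with hv
  have hg' : g = t ^ a * u := by rw [hu]; group
  have hh' : h = t ^ b * v := by rw [hv]; group
  have cuv : Commute (QuotientGroup.mk u : X ⧸ N) (QuotientGroup.mk v : X ⧸ N) :=
    (key u v).1 (h1 u ha v hb)
  have cut : Commute (QuotientGroup.mk u : X ⧸ N) (QuotientGroup.mk t : X ⧸ N) :=
    (key u t).1 (h2 u ha)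
  have cvt : Commute (QuotientGroup.mk v : X ⧸ N) (QuotientGroup.mk t : X ⧸ N) :=
    (key v t).1 (h2 v hb)
  rw [hg', hh']
  simp only [QuotientGroup.mk_mul, QuotientGroup.mk_zpow]
  have c1 : Commute ((QuotientGroup.mk t : X ⧸ N) ^ a) ((QuotientGroup.mk t : X ⧸ N) ^ b) :=
    Commute.zpow_zpow_self _ _ _
  have c2 : Commute ((QuotientGroup.mk t : X ⧸ N) ^ a) (QuotientGroup.mk v : X ⧸ N) :=
    (cvt.zpow_right a).symm
  have c3 : Commute (QuotientGroup.mk u : X ⧸ N) ((QuotientGroup.mk t : X ⧸ N) ^ b) :=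
    cut.zpow_right b
  exact (c1.mul_right c2).mul_left (c3.mul_right cuv)

theorem pkgClassK_of (hKB : PkgKBasic.{u}) : PkgClassK.{u} := by
  intro X _ _ p _ hc hcl w hw1 hwp
  have hp : p.Prime := Fact.out
  have hp2 := hp.two_le
  have hcl' : Group.nilpotencyClass X = p + 2 - 1 := by rw [hcl]; omega
  obtain ⟨hcard, -⟩ := Cfsg.Agent.Lib.Helper59.MC.pkgStruct X p (p + 2) (by omega) hc hcl'
  obtain ⟨hL1K, -, hKcard⟩ := hKB X p (p + 2) (by omega) hc hcl' w hw1 (by omega)
  -- L (p+1) = ⊥
  have hbot : L X (p + 1) = ⊥ := by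
    have h := hcard (p + 1) (by omega) (by omega)
    have e : p + 2 - 1 - (p + 1) = 0 := by omega
    rw [e, pow_zero] at h
    exact Subgroup.card_eq_one.1 h
  have hL1card : Nat.card (L X 1) = p ^ p := by
    have h := hcard 1 (by omega) (by omega)
    have e : p + 2 - 1 - 1 = p := by omega
    rw [e] at h
    exact h
  have hKcard' : Nat.card (K X w) = p * Nat.card (L X 1) := by
    rw [hKcard, hL1card]
    have e : p + 2 - 1 = p + 1 := by omega
    rw [e, pow_succ, mul_comm]
  -- an element of K w outside L 1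
  obtain ⟨t, htK, htL⟩ : ∃ t, t ∈ K X w ∧ t ∉ L X 1 := by
    by_contra hcon
    push Not at hcon
    have hle : K X w ≤ L X 1 := fun x hx => hcon x hx
    have h1 := Subgroup.card_le_of_le hle
    rw [hKcard', ] at h1
    have hpos : 0 < Nat.card (L X 1) := Nat.card_pos
    nlinarith
  -- first step
  have hstep1 : (K X w).lowerCentralSeries 1 ≤ L X (if 1 < w then 1 + 1 else 1 + 2) := by
    rw [Subgroup.lowerCentralSeries_succ, Subgroup.lowerCentralSeries_zero]
    by_cases hw : 1 < w
    · rw [if_pos hw]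
      refine comm_le_of_cyclic_ext (L X 1) (K X w) (L X (1 + 1)) hL1K hKcard' t htK htL ?_ ?_
      · intro u hu v hv
        exact Subgroup.lowerCentralSeries_antitone _ (by omega : 1 + 1 ≤ 1 + 1 + 1)
          (Cfsg.Agent.S4209.lcs_comm_top 1 1 (Subgroup.commutator_mem_commutator hu hv))
      · intro u hu
        exact Subgroup.commutator_mem_commutator hu (Subgroup.mem_top t)
    · rw [if_neg hw]
      have hw' : w = 1 := by omega
      subst hw'
      refine comm_le_of_cyclic_ext (L X 1) (K X 1) (L X (1 + 2)) hL1K hKcard' t htK htL ?_ ?_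
      · intro u hu v hv
        exact Cfsg.Agent.S4209.lcs_comm_top 1 1 (Subgroup.commutator_mem_commutator hu hv)
      · intro u hu
        exact comm_mem_of_mem_K htK hu
  -- the chain
  have hchain : ∀ j, 1 ≤ j →
      (K X w).lowerCentralSeries j ≤ L X (if j < w then j + 1 else j + 2) := by
    intro j hj
    induction j, hj using Nat.le_induction with
    | base => exact hstep1
    | succ j hj ih =>
      rw [Subgroup.lowerCentralSeries_succ]
      by_cases h1 : j + 1 < w
      · rw [if_pos h1]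
        rw [if_pos (by omega : j < w)] at ih
        exact Subgroup.commutator_mono ih le_top
      · rw [if_neg h1]
        by_cases h2 : j < w
        · rw [if_pos h2] at ih
          have hjw : j + 1 = w := by omega
          rw [Subgroup.commutator_le]
          intro a ha g hg
          have ha' : a ∈ L X w := by rw [← hjw]; exact ih ha
          have := comm_mem_of_mem_K hg ha'
          rw [← hjw] at this
          exact this
        · rw [if_neg h2] at ih
          exact Subgroup.commutator_mono ih le_top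
  have hfin := hchain (p - 1) (by omega)
  rw [if_neg (by omega : ¬ (p - 1 < w))] at hfin
  have e : p - 1 + 2 = p + 1 := by omega
  rw [e, hbot] at hfin
  exact le_bot_iff.1 hfin

end Cfsg.Agent.Lib.Helper63.BB
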