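import Mathlib
import Cfsg.Agent.Lib.Helper63.BB.Defs

/-! S4144 project "BB": final assembly. -/

set_option autoImplicit false

namespace Cfsg.Agent.Lib.Helper63.BB

open Cfsg.Agent.Lib.Helper63.MC

universe u

theorem s4144_of (hTwo : PkgTwo.{u}) (hExpP : PkgExpP.{u}) (hTopIdx : PkgTopIdx.{u})
    (hTop : PkgTop.{u}) (hBL : PkgBL.{u}) (hUEx : PkgUnifEx.{u}) (hPS : PkgPowStr.{u})
    (hSub : PkgSub.{u})
    {X : Type u} [Group X] [Finite X] {p : ℕ} [Fact p.Prime] (n : ℕ) (hn : 2 ≤ n)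
    (hX : Nat.card X = p ^ n) (hmax : Group.nilpotencyClass X = n - 1) (H : Subgroup X) :
    (Subgroup.closure {y : X | ∃ h ∈ H, y = h ^ p}).relIndex H ≤ p ^ p := by
  have hp : p.Prime := Fact.out
  by_cases hp2 : p = 2
  · subst hp2
    exact hTwo X n hn hX hmax H
  have hp3 : 3 ≤ p := by
    have := hp.two_le
    omega
  have hppos : 0 < p := hp.pos
  -- the trivial bound
  have hrel : (Subgroup.closure {y : X | ∃ h ∈ H, y = h ^ p}).relIndex H ≤ Nat.card H :=
    Nat.le_of_dvd Nat.card_pos (Subgroup.relIndex_dvd_card _ _)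
  have hHdvd : Nat.card H ∣ p ^ n := hX ▸ Subgroup.card_subgroup_dvd_card H
  obtain ⟨k, hk, hHk⟩ := (Nat.dvd_prime_pow hp).1 hHdvd
  by_cases hnp : n ≤ p
  · calc _ ≤ Nat.card H := hrel
      _ = p ^ k := hHk
      _ ≤ p ^ p := Nat.pow_le_pow_right hppos (by omega)
  by_cases hH : H = ⊤
  · subst hH
    have hex : ∃ g : X, g ^ p ∉ L X p := by
      by_cases hn1 : n = p + 1
      · subst hn1
        exact hExpP X p hp2 hX (by rw [hmax]; omega)
      · exact hTop X p n hp2 (by omega) hX hmax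
    exact hTopIdx X p n (by omega) hX hmax hex
  · by_cases hn1 : n = p + 1
    · have hkn : k ≠ n := by
        intro hkn
        apply hH
        apply Subgroup.eq_top_of_card_eq
        rw [hHk, hX, hkn]
      calc _ ≤ Nat.card H := hrel
        _ = p ^ k := hHk
        _ ≤ p ^ p := Nat.pow_le_pow_right hppos (by omega)
    · have hBL' := hBL X p n hp2 (by omega) hX hmax
      obtain ⟨s, hs⟩ := hUEx X p n (by omega) hX hmax
        (Or.inr ⟨hp3, fun i h1 h5 => hBL' i h1 (by omega)⟩)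
      have hP := hPS X p n (by omega) hX hmax s hs
      exact hSub X p n (by omega) hX hmax hP H hH

end Cfsg.Agent.Lib.Helper63.BB
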