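import Mathlib
import Cfsg.Agent.Lib.Helper63.BB.Defs
import Cfsg.Agent.Lib.Helper59.MC.Struct
import Cfsg.Agent.Lib.Helper85.UnifPow
import Cfsg.Agent.S4209
import Cfsg.Agent.S4210

/-! S4144 project "BB": package [B]. -/

set_option autoImplicit false

namespace Cfsg.Agent.Lib.Helper63.BB

open Cfsg.Agent.Lib.Helper63.MC
open scoped commutatorElement Pointwise

universe u

/-- `|⟨y⟩ A| ≤ p |A|` when `A` is normal and `y ^ p ∈ A`. -/
theorem card_zpowers_sup_le {G : Type u} [Group G] [Finite G] (p : ℕ) (hp : 0 < p)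
    (A : Subgroup G) [hA : A.Normal] (y : G) (hy : y ^ p ∈ A) :
    Nat.card (Subgroup.zpowers y ⊔ A : Subgroup G) ≤ p * Nat.card A := by
  have hsub : ((Subgroup.zpowers y ⊔ A : Subgroup G) : Set G) ⊆
      ((fun i : ℕ => y ^ i) '' (Finset.range p : Set ℕ)) * (A : Set G) := by
    rw [Subgroup.mul_normal]
    rintro x ⟨z, hz, n, hn, rfl⟩
    obtain ⟨k, rfl⟩ := Subgroup.mem_zpowers_iff.1 hz
    have hp' : (0 : ℤ) < (p : ℤ) := by exact_mod_cast hp
    have h0 : 0 ≤ k % (p : ℤ) := Int.emod_nonneg _ (ne_of_gt hp')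
    have h1 : k % (p : ℤ) < p := Int.emod_lt_of_pos _ hp'
    refine ⟨y ^ (k % (p : ℤ)).toNat, ⟨(k % (p : ℤ)).toNat, ?_, rfl⟩,
      (y ^ p) ^ (k / (p : ℤ)) * n, A.mul_mem (A.zpow_mem hy _) hn, ?_⟩
    · simp only [Finset.coe_range, Set.mem_Iio]
      omega
    · show y ^ (k % (p : ℤ)).toNat * ((y ^ p) ^ (k / (p : ℤ)) * n) = y ^ k * n
      have e1 : y ^ (k % (p : ℤ)).toNat = y ^ (k % (p : ℤ)) := by
        rw [← zpow_natCast, Int.toNat_of_nonneg h0]
      have e2 : (y ^ p) ^ (k / (p : ℤ)) = y ^ ((p : ℤ) * (k / (p : ℤ))) := by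
        rw [zpow_mul, zpow_natCast]
      rw [e1, e2, ← mul_assoc, ← zpow_add, Int.emod_add_mul_ediv]
  have hfin : (((fun i : ℕ => y ^ i) '' (Finset.range p : Set ℕ)) * (A : Set G)).Finite :=
    Set.toFinite _
  have h1 : Nat.card (Subgroup.zpowers y ⊔ A : Subgroup G) ≤
      Nat.card ↥(((fun i : ℕ => y ^ i) '' (Finset.range p : Set ℕ)) * (A : Set G)) :=
    Nat.card_mono hfin hsub
  have h2 : Nat.card ↥((fun i : ℕ => y ^ i) '' (Finset.range p : Set ℕ)) ≤ p := by
    rw [Nat.card_coe_set_eq]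
    refine (Set.ncard_image_le (Set.toFinite _)).trans ?_
    rw [Set.ncard_coe_finset, Finset.card_range]
  exact h1.trans ((Set.natCard_mul_le).trans (Nat.mul_le_mul_right _ h2))

theorem pkgStepB_of (hKB : PkgKBasic.{u}) : PkgStepB.{u} := by
  intro X _ _ p _ n hp2 hn hc hcl hP hlow
  have hp : p.Prime := Fact.out
  have hp3 : 3 ≤ p := by
    have := hp.two_le
    omega
  obtain ⟨hcard, -⟩ := Cfsg.Agent.Lib.Helper59.MC.pkgStruct X p n (by omega) hc hcl
  obtain ⟨a, ha⟩ : ∃ a, a = n - p - 3 := ⟨_, rfl⟩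
  have ha1 : 1 ≤ a := by omega
  -- the element y
  obtain ⟨y, hyL, hyL1⟩ : ∃ y, y ∈ L X a ∧ y ∉ L X (a + 1) := by
    by_contra hcon
    push Not at hcon
    have hle : L X a ≤ L X (a + 1) := fun x hx => hcon x hx
    have h1 := Subgroup.card_le_of_le hle
    rw [hcard a ha1 (by omega), hcard (a + 1) (by omega) (by omega)] at h1
    have h2 := (Nat.pow_le_pow_iff_right hp.one_lt).1 h1
    omega
  have hyp1 : y ^ p ∈ L X (n - 4) := by
    have h := hP.1 a ha1 y hyL
    have e : a + p - 1 = n - 4 := by omega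
    rwa [e] at h
  have hyp2 : y ^ p ∉ L X (n - 3) := by
    have h := hP.2 a ha1 (by omega) y hyL hyL1
    have e : a + p = n - 3 := by omega
    rwa [e] at h
  obtain ⟨N, hN⟩ : ∃ N, N = L X (n - 2) := ⟨_, rfl⟩
  have hNn : N.Normal := by rw [hN]; infer_instance
  have hNcard : Nat.card N = p := by
    rw [hN, hcard (n - 2) (by omega) (by omega)]
    have e : n - 1 - (n - 2) = 1 := by omega
    rw [e, pow_one]
  -- K 1 ≤ K (n-4)
  have hle : K X 1 ≤ K X (n - 4) := by
    intro g hg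
    rw [mem_K]
    have e4 : n - 4 + 2 = n - 2 := by omega
    rw [e4, ← hN]
    -- the subgroup of elements with kappa in N
    let S : Subgroup X :=
      { carrier := {a' | a'⁻¹ * (g * a' * g⁻¹) ∈ N}
        one_mem' := by
          show (1 : X)⁻¹ * (g * 1 * g⁻¹) ∈ N
          have : (1 : X)⁻¹ * (g * 1 * g⁻¹) = 1 := by group
          rw [this]; exact N.one_mem
        mul_mem' := by
          intro u v hu hv
          show (u * v)⁻¹ * (g * (u * v) * g⁻¹) ∈ N
          have e : (u * v)⁻¹ * (g * (u * v) * g⁻¹) =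
              v⁻¹ * (u⁻¹ * (g * u * g⁻¹)) * v⁻¹⁻¹ * (v⁻¹ * (g * v * g⁻¹)) := by group
          rw [e]
          exact N.mul_mem (hNn.conj_mem _ hu _) hv
        inv_mem' := by
          intro u hu
          show u⁻¹⁻¹ * (g * u⁻¹ * g⁻¹) ∈ N
          have e : u⁻¹⁻¹ * (g * u⁻¹ * g⁻¹) = u * (u⁻¹ * (g * u * g⁻¹))⁻¹ * u⁻¹ := by group
          rw [e]
          exact hNn.conj_mem _ (N.inv_mem hu) _ }
    have hS : ∀ x, x ∈ S ↔ x⁻¹ * (g * x * g⁻¹) ∈ N := fun x => Iff.rfl
    -- L (n-3) ≤ S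
    have hS1 : L X (n - 3) ≤ S := by
      intro z hz
      rw [hS, hN]
      have h1 : ⁅z⁻¹, g⁆ ∈ L X (n - 3 + 1) :=
        Subgroup.commutator_mem_commutator (Subgroup.inv_mem _ hz) (Subgroup.mem_top g)
      have e : n - 3 + 1 = n - 2 := by omega
      rw [e] at h1
      have e2 : z⁻¹ * (g * z * g⁻¹) = ⁅z⁻¹, g⁆ := by
        rw [commutatorElement_def]; group
      rw [e2]; exact h1
    -- y ^ p ∈ S
    have hS2 : y ^ p ∈ S := by
      rw [hS]
      -- c := kappa_g(y) ∈ L (a+2)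
      obtain ⟨c, hcdef⟩ : ∃ c, c = y⁻¹ * (g * y * g⁻¹) := ⟨_, rfl⟩
      have hcL : c ∈ L X (a + 2) := by
        have hK : K X a = K X 1 := hlow a ha1 (by omega)
        have hg' : g ∈ K X a := by rw [hK]; exact hg
        rw [hcdef]
        exact (mem_K.1 hg') y hyL
      have hcp : c ^ p ∈ N := by
        have h := hP.1 (a + 2) (by omega) c hcL
        have e : a + 2 + p - 1 = n - 2 := by omega
        rw [e, ← hN] at h
        exact h
      have hconj : g * y * g⁻¹ = y * c := by rw [hcdef]; group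
      have hgoal : (y ^ p)⁻¹ * (g * y ^ p * g⁻¹) = (y ^ p)⁻¹ * (y * c) ^ p := by
        rw [← hconj, conj_pow]
      rw [hgoal]
      -- the regular quotient
      obtain ⟨U, hUdef⟩ : ∃ U, U = Subgroup.zpowers y ⊔ L X (a + 2) := ⟨_, rfl⟩
      have hNU : N ≤ U := by
        rw [hN, hUdef]
        exact (Subgroup.lowerCentralSeries_antitone _ (by omega)).trans le_sup_right
      have hyU : y ∈ U := by rw [hUdef]; exact Subgroup.mem_sup_left (Subgroup.mem_zpowers y)
      have hcU : c ∈ U := by rw [hUdef]; exact Subgroup.mem_sup_right hcL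
      have hypA : y ^ p ∈ L X (a + 2) :=
        Subgroup.lowerCentralSeries_antitone _ (by omega) hyp1
      have hcUle : Nat.card U ≤ p * Nat.card (L X (a + 2)) := by
        rw [hUdef]
        exact card_zpowers_sup_le p hp.pos (L X (a + 2)) y hypA
      have hLa2 : Nat.card (L X (a + 2)) = p ^ p := by
        rw [hcard (a + 2) (by omega) (by omega)]
        congr 1
        omega
      have hcN : Nat.card (N.subgroupOf U) = Nat.card N :=
        Nat.card_congr (Subgroup.subgroupOfEquivOfLe hNU).toEquiv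
      have hcQ := Subgroup.card_eq_card_quotient_mul_card_subgroup (N.subgroupOf U)
      rw [hcN, hNcard] at hcQ
      obtain ⟨k, hk, hkQ⟩ : ∃ k, k ≤ p ∧ Nat.card (U ⧸ N.subgroupOf U) = p ^ k := by
        have hUdvd : Nat.card U ∣ p ^ n := hc ▸ Subgroup.card_subgroup_dvd_card U
        have hdvd : Nat.card (U ⧸ N.subgroupOf U) ∣ p ^ n :=
          (Dvd.intro _ hcQ.symm).trans hUdvd
        obtain ⟨k, -, hk⟩ := (Nat.dvd_prime_pow hp).1 hdvd
        refine ⟨k, ?_, hk⟩
        have h5 : Nat.card (U ⧸ N.subgroupOf U) * p ≤ p * p ^ p := by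
          rw [← hcQ, ← hLa2]; exact hcUle
        rw [hk] at h5
        have h6 : p ^ (k + 1) ≤ p ^ (p + 1) := by
          rw [pow_succ, pow_succ, mul_comm (p ^ p)]; exact h5
        have h7 := (Nat.pow_le_pow_iff_right hp.one_lt).1 h6
        omega
      have hreg : Cfsg.IsRegularPGroup p (U ⧸ N.subgroupOf U) :=
        Cfsg.Agent.S4209.result (IsPGroup.of_card hkQ)
          (Cfsg.Agent.Lib.Helper85.UnifElt.class_lt_of_card hkQ hk)
      have hab := (Cfsg.Agent.S4210.result hreg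
        (QuotientGroup.mk (⟨y * c, U.mul_mem hyU hcU⟩ : U))
        (QuotientGroup.mk (⟨y, hyU⟩ : U)) 1).2 (by
          rw [pow_one, ← QuotientGroup.mk_inv, ← QuotientGroup.mk_mul, ← QuotientGroup.mk_pow,
            QuotientGroup.eq_one_iff, Subgroup.mem_subgroupOf]
          have e : ((⟨y * c, U.mul_mem hyU hcU⟩ * (⟨y, hyU⟩ : U)⁻¹) ^ p : U).1 =
              y * c ^ p * y⁻¹ := by
            simp only [Subgroup.coe_pow, Subgroup.coe_mul, Subgroup.coe_inv]
            rw [← conj_pow]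
          rw [e]
          exact hNn.conj_mem _ hcp y)
      rw [pow_one, ← QuotientGroup.mk_pow, ← QuotientGroup.mk_pow] at hab
      have hab2 := QuotientGroup.eq.1 hab.symm
      rw [Subgroup.mem_subgroupOf] at hab2
      simpa using hab2
    -- L (n-4) ≤ S
    intro a' ha'
    have hcard4 : Nat.card (L X (n - 4)) = p * Nat.card (L X (n - 3)) := by
      rw [hcard (n - 4) (by omega) (by omega), hcard (n - 3) (by omega) (by omega), ← pow_succ']
      congr 1
      omega
    have hle43 : L X (n - 3) ≤ L X (n - 4) := Subgroup.lowerCentralSeries_antitone _ (by omega)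
    have hsup := Cfsg.Agent.Lib.Helper85.UnifElt.le_zpowers_sup hle43 hcard4 hyp1 hyp2 ha'
    have hsupS : Subgroup.zpowers (y ^ p) ⊔ L X (n - 3) ≤ S :=
      sup_le (by rw [Subgroup.zpowers_le]; exact hS2) hS1
    exact (hS a').1 (hsupS hsup)
  -- equality by cardinality
  obtain ⟨-, -, hK1⟩ := hKB X p n (by omega) hc hcl 1 (by omega) (by omega)
  obtain ⟨-, -, hK4⟩ := hKB X p n (by omega) hc hcl (n - 4) (by omega) (by omega)
  exact (Subgroup.eq_of_le_of_card_ge hle (by rw [hK1, hK4])).symm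

end Cfsg.Agent.Lib.Helper63.BB
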